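-- Team project LSF (S5286), package [TREE]: a finite group of automorphisms of the Cayley tree
-- of a free group fixes a vertex of every invariant convex set of vertices (helper13).
import Cfsg.Agent.Lib.Helper67.LSF.Defs

set_option autoImplicit false

/-!
# [TREE]: the fixed vertex

The affine action `h • v = h.left * h.right v` of `FreeGroup X ⋊ Q` on `FreeGroup X` is by
isometries of `d(u, v) = norm (u⁻¹ v)`.  A vertex of `V` minimising the largest distance to the
(finite) orbit of `1` is fixed: two minimisers are at distance at most one (the midpoint argument,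
[VSHAPE]), and an edge cannot be inverted.
-/

namespace Cfsg.Agent.Lib.Helper13.LSF

open Cfsg Cfsg.Agent.Lib.Helper67.LSF

universe u

theorem tree_norm_aut {Q : Type u} [Group Q] {X : Type u} [DecidableEq X]
    (α : Q →* Equiv.Perm X) (q : Q) (w : FreeGroup X) : (autX α q w).norm = w.norm := by
  have hle : ∀ (q : Q) (w : FreeGroup X), (autX α q w).norm ≤ w.norm := by
    intro q w
    have h1 : autX α q w = FreeGroup.mk (w.toWord.map fun ℓ => (α q ℓ.1, ℓ.2)) := by
      conv_lhs => rw [← FreeGroup.mk_toWord (x := w)]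
      exact autX_mk α q _
    rw [h1]
    refine FreeGroup.norm_mk_le.trans ?_
    rw [List.length_map]
    rfl
  apply le_antisymm (hle q w)
  have h2 : autX α q⁻¹ (autX α q w) = w := by
    have h3 : autX α (q⁻¹ * q) = autX α q⁻¹ * autX α q := map_mul _ _ _
    have h4 : autX α (q⁻¹ * q) w = w := by
      rw [inv_mul_cancel, map_one]
      rfl
    rw [h3] at h4
    exact h4
  calc w.norm = (autX α q⁻¹ (autX α q w)).norm := by rw [h2]
    _ ≤ (autX α q w).norm := hle _ _

theorem pkgTree : PkgVShape.{u} → PkgTree.{u} := by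
  intro hVS Q _ X α H _ V h1 hinv hconv
  classical
  haveI : Fintype H := Fintype.ofFinite H
  obtain ⟨act, hact⟩ : ∃ act : SemidirectProduct (FreeGroup X) Q (autX α) → FreeGroup X →
      FreeGroup X, act = fun h v => h.left * autX α h.right v := ⟨_, rfl⟩
  have act_def : ∀ h v, act h v = h.left * autX α h.right v := fun h v => by rw [hact]
  have act_mul : ∀ h h' v, act (h * h') v = act h (act h' v) := by
    intro h h' v
    rw [act_def, act_def, act_def, SemidirectProduct.mul_left, SemidirectProduct.mul_right,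
      map_mul (autX α) h.right h'.right, MulAut.mul_apply, map_mul (autX α h.right), mul_assoc]
  have act_one : ∀ k : SemidirectProduct (FreeGroup X) Q (autX α), act k 1 = k.left := by
    intro k
    rw [act_def, map_one, mul_one]
  have act_iso : ∀ h u v, (act h u)⁻¹ * act h v = autX α h.right (u⁻¹ * v) := by
    intro h u v
    rw [act_def, act_def, mul_inv_rev, mul_assoc, inv_mul_cancel_left, map_mul, map_inv]
  obtain ⟨R, hR⟩ : ∃ R : FreeGroup X → ℕ,
      R = fun v => Finset.univ.sup (fun k : H => (v⁻¹ * k.1.left).norm) := ⟨_, rfl⟩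
  have le_R : ∀ k ∈ H, ∀ v, (v⁻¹ * k.left).norm ≤ R v := by
    intro k hk v
    rw [hR]
    exact Finset.le_sup (f := fun k : H => (v⁻¹ * k.1.left).norm) (Finset.mem_univ ⟨k, hk⟩)
  have R_act : ∀ h ∈ H, ∀ v, R (act h v) ≤ R v := by
    intro h hh v
    conv_lhs => rw [hR]
    apply Finset.sup_le
    intro k _
    have h2 : k.1.left = act h ((h⁻¹ * k.1).left) := by
      rw [← act_one (h⁻¹ * k.1), ← act_mul, mul_inv_cancel_left, act_one]
    show ((act h v)⁻¹ * k.1.left).norm ≤ R v
    rw [h2, act_iso, tree_norm_aut]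
    exact le_R _ (H.mul_mem (H.inv_mem hh) k.2) v
  obtain ⟨v, hvV, hvmin⟩ : ∃ v ∈ V, ∀ v' ∈ V, R v ≤ R v' := by
    have hne : (R '' V).Nonempty := ⟨R 1, 1, h1, rfl⟩
    obtain ⟨v, hvV, hv⟩ := Nat.sInf_mem hne
    exact ⟨v, hvV, fun v' hv' => by rw [hv]; exact Nat.sInf_le ⟨v', hv', rfl⟩⟩
  have key : ∀ v' ∈ V, R v' ≤ R v → (v⁻¹ * v').norm ≤ 1 := by
    intro v' hv'V hRv'
    by_contra hlt
    have hlen : 2 ≤ (v⁻¹ * v').toWord.length := not_le.mp hlt
    obtain ⟨L₁, hL₁⟩ : ∃ L₁, L₁ = (v⁻¹ * v').toWord.take 1 := ⟨_, rfl⟩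
    obtain ⟨L₂, hL₂⟩ : ∃ L₂, L₂ = (v⁻¹ * v').toWord.drop 1 := ⟨_, rfl⟩
    have happ : L₁ ++ L₂ = (v⁻¹ * v').toWord := by rw [hL₁, hL₂, List.take_append_drop]
    have hL₁ne : L₁ ≠ [] := by
      intro h0
      have h5 := congrArg List.length h0
      rw [hL₁, List.length_take] at h5
      simp only [List.length_nil] at h5
      omega
    have hL₂ne : L₂ ≠ [] := by
      intro h0
      have h5 := congrArg List.length h0
      rw [hL₂, List.length_drop] at h5
      simp only [List.length_nil] at h5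
      omega
    have hred : FreeGroup.IsReduced (L₁ ++ L₂) := by
      rw [happ]
      exact FreeGroup.isReduced_toWord
    have hmk : FreeGroup.mk (L₁ ++ L₂) = v⁻¹ * v' := by
      rw [happ]
      exact FreeGroup.mk_toWord
    have hmid : v * FreeGroup.mk L₁ ∈ V := by
      apply hconv v hvV L₁ L₂ hred
      rw [hmk, mul_inv_cancel_left]
      exact hv'V
    have hterm : ∀ k ∈ H, ((v * FreeGroup.mk L₁)⁻¹ * k.left).norm < R v := by
      intro k hk
      have h3 := hVS (k.left⁻¹ * v) L₁ L₂ hred hL₁ne hL₂ne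
      have e1 : (v * FreeGroup.mk L₁)⁻¹ * k.left = (k.left⁻¹ * v * FreeGroup.mk L₁)⁻¹ := by group
      have e2 : k.left⁻¹ * v = (v⁻¹ * k.left)⁻¹ := by group
      have e3 : k.left⁻¹ * v * FreeGroup.mk (L₁ ++ L₂) = (v'⁻¹ * k.left)⁻¹ := by
        rw [hmk]
        group
      rw [e1, FreeGroup.norm_inv_eq]
      refine lt_of_lt_of_le h3 (max_le ?_ ?_)
      · rw [e2, FreeGroup.norm_inv_eq]
        exact le_R k hk v
      · rw [e3, FreeGroup.norm_inv_eq]
        exact (le_R k hk v').trans hRv'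
    have hlt2 : R (v * FreeGroup.mk L₁) < R v := by
      conv_lhs => rw [hR]
      rw [Finset.sup_lt_iff (lt_of_le_of_lt bot_le (hterm 1 H.one_mem))]
      intro k _
      exact hterm k.1 k.2
    exact absurd (hvmin _ hmid) (not_le.mpr hlt2)
  refine ⟨v, hvV, ?_⟩
  intro h hh
  by_contra hne
  rw [← act_def] at hne
  have hv'V : act h v ∈ V := by
    rw [act_def]
    exact hinv h hh v hvV
  have hRv' : R (act h v) ≤ R v := R_act h hh v
  have hv''V : act h (act h v) ∈ V := by
    rw [act_def h (act h v)]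
    exact hinv h hh _ hv'V
  have hRv'' : R (act h (act h v)) ≤ R v := (R_act h hh _).trans hRv'
  have A1 := key _ hv'V hRv'
  have A2 := key _ hv''V hRv''
  have hx1 : (v⁻¹ * act h v).toWord.length = 1 := by
    have h0 : (v⁻¹ * act h v).norm ≠ 0 := by
      intro h0
      have h6 := FreeGroup.norm_eq_zero.mp h0
      exact hne (inv_mul_eq_one.mp h6).symm
    have h7 : (v⁻¹ * act h v).norm = 1 := by omega
    exact h7
  obtain ⟨ℓ, hℓ⟩ := List.length_eq_one_iff.mp hx1
  have hx : v⁻¹ * act h v = FreeGroup.mk [ℓ] := by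
    rw [← hℓ]
    exact FreeGroup.mk_toWord.symm
  have hy : (act h v)⁻¹ * act h (act h v) = FreeGroup.mk [(α h.right ℓ.1, ℓ.2)] := by
    rw [act_iso, hx, autX_mk]
    rfl
  have hprod : v⁻¹ * act h (act h v) = FreeGroup.mk ([ℓ] ++ [(α h.right ℓ.1, ℓ.2)]) := by
    rw [← FreeGroup.mul_mk, ← hx, ← hy]
    group
  have hred2 : FreeGroup.IsReduced ([ℓ] ++ [(α h.right ℓ.1, ℓ.2)]) := by
    show FreeGroup.IsReduced [ℓ, (α h.right ℓ.1, ℓ.2)]
    exact FreeGroup.isReduced_cons_cons.mpr ⟨fun _ => rfl, FreeGroup.IsReduced.singleton⟩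
  have hn2 : (v⁻¹ * act h (act h v)).norm = 2 := by
    rw [hprod]
    show (FreeGroup.mk ([ℓ] ++ [(α h.right ℓ.1, ℓ.2)])).toWord.length = 2
    rw [FreeGroup.toWord_mk, hred2.reduce_eq]
    rfl
  omega

end Cfsg.Agent.Lib.Helper13.LSF
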